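import Cfsg.Prelude.Def_LieTypeDatum

/-!
Similarities and isometries of the bilinear form of a matrix; transport along a linear bijection.
-/

set_option autoImplicit false
set_option linter.unusedSectionVars false

namespace Cfsg.Agent.H62.GraphPSL

open Matrix

variable {F : Type*} [Field F] {ι κ : Type} [Fintype ι] [DecidableEq ι] [Fintype κ] [DecidableEq κ]

/-- The similarities `hᵀ G h = c G` of the form with matrix `G`. -/
def formSim (G : Matrix ι ι F) : Subgroup (GL ι F) where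
  carrier := {h | ∃ c : Fˣ, (h : Matrix ι ι F)ᵀ * G * h = (c : F) • G}
  one_mem' := ⟨1, by simp⟩
  mul_mem' {a b} ha hb := by
    obtain ⟨c, hc⟩ := ha
    obtain ⟨d, hd⟩ := hb
    refine ⟨c * d, ?_⟩
    rw [Units.val_mul, transpose_mul, show (b : Matrix ι ι F)ᵀ * (a : Matrix ι ι F)ᵀ * G * ((a : Matrix ι ι F) * b) =
      (b : Matrix ι ι F)ᵀ * ((a : Matrix ι ι F)ᵀ * G * a) * b by simp only [Matrix.mul_assoc], hc,
      Matrix.mul_smul, Matrix.smul_mul, hd, smul_smul, Units.val_mul]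
  inv_mem' {a} ha := by
    obtain ⟨c, hc⟩ := ha
    refine ⟨c⁻¹, ?_⟩
    have h1 : (a : Matrix ι ι F) * ((a⁻¹ : GL ι F) : Matrix ι ι F) = 1 := by
      rw [← Units.val_mul, mul_inv_cancel, Units.val_one]
    set b := ((a⁻¹ : GL ι F) : Matrix ι ι F)
    have h2 : bᵀ * ((a : Matrix ι ι F)ᵀ * G * a) * b = G := by
      rw [show bᵀ * ((a : Matrix ι ι F)ᵀ * G * a) * b = (bᵀ * (a : Matrix ι ι F)ᵀ) * G * ((a : Matrix ι ι F) * b)
        by simp only [Matrix.mul_assoc], ← transpose_mul, h1, transpose_one, Matrix.one_mul, Matrix.mul_one]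
    rw [hc, Matrix.mul_smul, Matrix.smul_mul] at h2
    calc bᵀ * G * b = ((c⁻¹ : Fˣ) : F) • ((c : F) • (bᵀ * G * b)) := by
          rw [smul_smul, ← Units.val_mul, inv_mul_cancel, Units.val_one, one_smul]
      _ = _ := by rw [h2]

/-- The isometries `hᵀ G h = G` of the form with matrix `G`. -/
def formIso (G : Matrix ι ι F) : Subgroup (GL ι F) where
  carrier := {h | (h : Matrix ι ι F)ᵀ * G * h = G}
  one_mem' := by simp
  mul_mem' {a b} ha hb := by
    show ((a * b : GL ι F) : Matrix ι ι F)ᵀ * G * (a * b : GL ι F) = G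
    rw [Units.val_mul, transpose_mul, show (b : Matrix ι ι F)ᵀ * (a : Matrix ι ι F)ᵀ * G * ((a : Matrix ι ι F) * b) =
      (b : Matrix ι ι F)ᵀ * ((a : Matrix ι ι F)ᵀ * G * a) * b by simp only [Matrix.mul_assoc], ha, hb]
  inv_mem' {a} ha := by
    have h1 : (a : Matrix ι ι F) * ((a⁻¹ : GL ι F) : Matrix ι ι F) = 1 := by
      rw [← Units.val_mul, mul_inv_cancel, Units.val_one]
    show ((a⁻¹ : GL ι F) : Matrix ι ι F)ᵀ * G * (a⁻¹ : GL ι F) = G
    set b := ((a⁻¹ : GL ι F) : Matrix ι ι F)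
    conv_lhs => rw [← ha]
    rw [show bᵀ * ((a : Matrix ι ι F)ᵀ * G * a) * b = (bᵀ * (a : Matrix ι ι F)ᵀ) * G * ((a : Matrix ι ι F) * b)
        by simp only [Matrix.mul_assoc], ← transpose_mul, h1, transpose_one, Matrix.one_mul, Matrix.mul_one]

theorem mem_formSim {G : Matrix ι ι F} {h : GL ι F} :
    h ∈ formSim G ↔ ∃ c : Fˣ, (h : Matrix ι ι F)ᵀ * G * h = (c : F) • G := Iff.rfl

theorem mem_formIso {G : Matrix ι ι F} {h : GL ι F} :
    h ∈ formIso G ↔ (h : Matrix ι ι F)ᵀ * G * h = G := Iff.rfl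

theorem formIso_le_formSim (G : Matrix ι ι F) : formIso G ≤ formSim G := fun h hh =>
  ⟨1, by rw [Units.val_one, one_smul]; exact hh⟩

/-- Matrices are determined by their bilinear forms. -/
theorem ext_of_bilin {A B : Matrix ι ι F} (h : ∀ u v, u ⬝ᵥ A *ᵥ v = u ⬝ᵥ B *ᵥ v) : A = B := by
  ext i j
  simpa [mulVec_single, dotProduct, Pi.single_apply] using h (Pi.single i 1) (Pi.single j 1)

/-- In odd characteristic symmetric matrices are determined by their quadratic forms. -/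
theorem ext_of_quad (h2 : (2 : F) ≠ 0) {A B : Matrix ι ι F} (hA : Aᵀ = A) (hB : Bᵀ = B)
    (h : ∀ v, v ⬝ᵥ A *ᵥ v = v ⬝ᵥ B *ᵥ v) : A = B := by
  refine ext_of_bilin fun u v => mul_left_cancel₀ h2 ?_
  have hsymm : ∀ M : Matrix ι ι F, Mᵀ = M → ∀ x y : ι → F, x ⬝ᵥ M *ᵥ y = y ⬝ᵥ M *ᵥ x := by
    intro M hM x y
    rw [dotProduct_mulVec, ← mulVec_transpose, hM, dotProduct_comm]
  have e := h (u + v)
  simp only [mulVec_add, add_dotProduct, dotProduct_add, h u, h v, hsymm A hA v u, hsymm B hB v u] at e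
  linear_combination e

theorem dot_mulVec_congr (G M : Matrix ι ι F) (u v : ι → F) :
    (M *ᵥ u) ⬝ᵥ G *ᵥ (M *ᵥ v) = u ⬝ᵥ (Mᵀ * G * M) *ᵥ v := by
  rw [← mulVec_mulVec, ← mulVec_mulVec, dotProduct_mulVec u Mᵀ, vecMul_transpose]

/-- Conjugation of matrices by a linear bijection. -/
def glConj (L : (κ → F) ≃ₗ[F] (ι → F)) : GL κ F ≃* GL ι F :=
  Units.mapEquiv
    { toFun := fun M => LinearMap.toMatrix' (L.toLinearMap ∘ₗ Matrix.toLin' M ∘ₗ L.symm.toLinearMap)
      invFun := fun M => LinearMap.toMatrix' (L.symm.toLinearMap ∘ₗ Matrix.toLin' M ∘ₗ L.toLinearMap)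
      left_inv := fun M => by
        apply Matrix.toLin'.injective
        refine LinearMap.ext fun v => ?_
        simp
      right_inv := fun M => by
        apply Matrix.toLin'.injective
        refine LinearMap.ext fun v => ?_
        simp
      map_mul' := fun M N => by
        apply Matrix.toLin'.injective
        refine LinearMap.ext fun v => ?_
        simp [Matrix.toLin'_mul] }

theorem glConj_mulVec (L : (κ → F) ≃ₗ[F] (ι → F)) (h : GL κ F) (v : κ → F) :
    ((glConj L h : GL ι F) : Matrix ι ι F) *ᵥ (L v) = L ((h : Matrix κ κ F) *ᵥ v) := by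
  simp [glConj, LinearMap.toMatrix'_mulVec]

theorem glConj_mem_scalars (L : (κ → F) ≃ₗ[F] (ι → F)) (h : GL κ F) :
    glConj L h ∈ Geo.scalars ι F ↔ h ∈ Geo.scalars κ F := by
  rw [Geo.mem_scalars_iff, Geo.mem_scalars_iff]
  refine exists_congr fun c => ⟨fun e => ?_, fun e => ?_⟩
  · refine Matrix.ext_of_mulVec_single fun i => L.injective ?_
    rw [← glConj_mulVec, e]
    simp only [smul_mulVec, one_mulVec, map_smul]
  · refine Matrix.ext_of_mulVec_single fun i => ?_
    obtain ⟨v, hv⟩ := L.surjective (Pi.single i 1)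
    rw [← hv, glConj_mulVec, e]
    simp only [smul_mulVec, one_mulVec, map_smul]

/-- Bilinear version of the transport. -/
theorem glConj_mem_similarity {G : Matrix κ κ F} (L : (κ → F) ≃ₗ[F] (ι → F))
    {f : (ι → F) → (ι → F) → F} {k : F} (hk : k ≠ 0)
    (hf : ∀ u v, f (L u) (L v) = k * (u ⬝ᵥ G *ᵥ v)) (h : GL κ F) :
    glConj L h ∈ Geo.similarityGroup f ↔ h ∈ formSim G := by
  refine exists_congr fun c => ⟨fun e => ext_of_bilin fun u v => mul_left_cancel₀ hk ?_,
    fun e => L.surjective.forall₂.mpr fun u v => ?_⟩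
  · have := e (L u) (L v)
    rw [glConj_mulVec, glConj_mulVec, hf, hf, dot_mulVec_congr] at this
    rw [this, smul_mulVec, dotProduct_smul, smul_eq_mul]
    ring
  · rw [glConj_mulVec, glConj_mulVec, hf, hf, dot_mulVec_congr, e, smul_mulVec, dotProduct_smul,
      smul_eq_mul]
    ring

/-- Quadratic version of the transport. -/
theorem glConj_mem_quadSimilarity (h2 : (2 : F) ≠ 0) {G : Matrix κ κ F} (hG : Gᵀ = G)
    (L : (κ → F) ≃ₗ[F] (ι → F)) {Q : (ι → F) → F} {k : F} (hk : k ≠ 0)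
    (hQ : ∀ v, Q (L v) = k * (v ⬝ᵥ G *ᵥ v)) (h : GL κ F) :
    glConj L h ∈ Geo.quadSimilarityGroup Q ↔ h ∈ formSim G := by
  refine exists_congr fun c => ⟨fun e => ext_of_quad h2 ?_ ?_ fun v => mul_left_cancel₀ hk ?_,
    fun e => L.surjective.forall.mpr fun v => ?_⟩
  · simp [transpose_mul, hG, Matrix.mul_assoc]
  · simp [hG]
  · have := e (L v)
    rw [glConj_mulVec, hQ, hQ, dot_mulVec_congr] at this
    rw [this, smul_mulVec, dotProduct_smul, smul_eq_mul]
    ring
  · rw [glConj_mulVec, hQ, hQ, dot_mulVec_congr, e, smul_mulVec, dotProduct_smul, smul_eq_mul]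
    ring

/-- Transport of the isometries to isometries of a congruent form. -/
theorem glConj_mem_formIso {G : Matrix κ κ F} {K : Matrix ι ι F} (L : (κ → F) ≃ₗ[F] (ι → F))
    (hK : ∀ u v, (L u) ⬝ᵥ K *ᵥ (L v) = u ⬝ᵥ G *ᵥ v) (h : GL κ F) :
    glConj L h ∈ formIso K ↔ h ∈ formIso G := by
  refine ⟨fun e => ext_of_bilin fun u v => ?_, fun e => ext_of_bilin (L.surjective.forall₂.mpr fun u v => ?_)⟩
  · rw [← dot_mulVec_congr, ← hK, ← glConj_mulVec, ← glConj_mulVec, dot_mulVec_congr, e, hK]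
  · rw [← dot_mulVec_congr, glConj_mulVec, glConj_mulVec, hK, hK, dot_mulVec_congr, e]

/-- The matrix of a congruence, as a linear bijection between coordinate spaces. -/
theorem exists_GL_of_congr (L : (κ → F) ≃ₗ[F] (κ → F)) :
    ∃ P : GL κ F, ∀ v, (P : Matrix κ κ F) *ᵥ v = L v := by
  refine ⟨⟨LinearMap.toMatrix' L.toLinearMap, LinearMap.toMatrix' L.symm.toLinearMap, ?_, ?_⟩,
    fun v => LinearMap.toMatrix'_mulVec _ v⟩
  · rw [← LinearMap.toMatrix'_comp]; simp
  · rw [← LinearMap.toMatrix'_comp]; simp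

/-- Forms equal up to scale after a change of variables are congruent up to scale. -/
theorem exists_congr_of_equiv {A B : Matrix κ κ F} {k : F} (L : (κ → F) ≃ₗ[F] (κ → F))
    (hL : ∀ u v, (L u) ⬝ᵥ B *ᵥ (L v) = k * (u ⬝ᵥ A *ᵥ v)) :
    ∃ P : GL κ F, (P : Matrix κ κ F)ᵀ * B * P = k • A := by
  obtain ⟨P, hP⟩ := exists_GL_of_congr L
  refine ⟨P, ext_of_bilin fun u v => ?_⟩
  rw [← dot_mulVec_congr, hP, hP, hL, smul_mulVec, dotProduct_smul, smul_eq_mul]

end Cfsg.Agent.H62.GraphPSL
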