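import Cfsg.Agent.H70.AutPSL.FieldClass
import Cfsg.Agent.H62.GraphPSL.Forms

/-!
Involutory graph automorphisms of `PSL_n`: normal form by a form matrix, conjugacy, centralisers.
-/

set_option autoImplicit false
set_option linter.unusedSectionVars false

namespace Cfsg.Agent.H62.GraphPSL

open Matrix Cfsg.Agent.H70.AutPSL

variable {n : ℕ} {F : Type*} [Field F] [Finite F]

local notation "PSLn" => Matrix.ProjectiveSpecialLinearGroup (Fin n) F
local notation "GLn" => GL (Fin n) F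
local notation "Mn" => Matrix (Fin n) (Fin n) F

/-- The graph automorphism belonging to the form with matrix `G`. -/
noncomputable def ofForm (G : GLn) : MulAut PSLn := innDiag n F G⁻¹ * itAut n F

theorem inv_scal (a : Fˣ) : (scal n a : GLn)⁻¹ = scal n a⁻¹ := (map_inv _ a).symm

theorem isGraph_ofForm (hn : 3 ≤ n) (G : GLn) : Cfsg.IsGraphAutClassPSL (ofForm G) :=
  ⟨hn, _, _, semiAut_refl_inndiag _, itAut_induced, rfl⟩

theorem exists_ofForm {γ : MulAut PSLn} (h : Cfsg.IsGraphAutClassPSL γ) : ∃ G, γ = ofForm G := by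
  obtain ⟨-, δ, ι, hδ, hι, rfl⟩ := h
  obtain ⟨g, rfl⟩ := eq_of_inndiag hδ
  exact ⟨g⁻¹, by rw [eq_of_invTranspose hι, ofForm, inv_inv]⟩

theorem ofForm_eq_iff (hn : 2 ≤ n) (G G' : GLn) :
    ofForm G = ofForm G' ↔ ∃ a : Fˣ, G' = scal n a * G := by
  rw [ofForm, ofForm, mul_left_inj, innDiag_eq_iff hn]
  constructor <;> rintro ⟨a, ha⟩ <;> refine ⟨a⁻¹, ?_⟩
  · rw [← inv_inv G', ha, _root_.mul_inv_rev, inv_inv, inv_scal, scal_comm]
  · rw [ha, _root_.mul_inv_rev, inv_scal, scal_comm]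

theorem itAut_inv : (itAut n F)⁻¹ = itAut n F := inv_eq_of_mul_eq_one_right itAut_mul_self

theorem itAut_innDiag (h : GLn) : itAut n F * innDiag n F h = innDiag n F (itGL n F h) * itAut n F := by
  rw [innDiag_apply, innDiag_apply, ← itAut_semiAut, mul_assoc _ (itAut n F), itAut_mul_self, mul_one]

theorem conj_ofForm (h G : GLn) :
    innDiag n F h * ofForm G * (innDiag n F h)⁻¹ = ofForm (itGL n F h * G * h⁻¹) := by
  rw [ofForm, ofForm, ← map_inv, mul_assoc, mul_assoc, itAut_innDiag, ← mul_assoc, ← mul_assoc,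
    ← map_mul, ← map_mul]
  simp only [_root_.mul_inv_rev, inv_inv, map_inv, mul_assoc]

theorem itGL_conj_coe (h G : GLn) :
    ((itGL n F h * G * h⁻¹ : GLn) : Mn) = ((h⁻¹ : GLn) : Mn)ᵀ * G * (h⁻¹ : GLn) := by
  rw [Units.val_mul, Units.val_mul, itGL_coe]

theorem scal_mul_eq_iff (a : Fˣ) (A B : GLn) : B = scal n a * A ↔ (B : Mn) = (a : F) • (A : Mn) := by
  rw [← scal_mul_coe]
  exact Units.ext_iff

theorem isConjUnder_ofForm_iff (hn : 2 ≤ n) (G G' : GLn) :
    Cfsg.IsConjUnder (Cfsg.inndiagPSL n F) (ofForm G) (ofForm G') ↔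
      ∃ (P : GLn) (c : Fˣ), (G' : Mn) = (c : F) • ((P : Mn)ᵀ * G * P) := by
  rw [inndiagPSL_eq_range]
  constructor
  · rintro ⟨_, ⟨h, rfl⟩, e⟩
    rw [conj_ofForm] at e
    obtain ⟨a, ha⟩ := (ofForm_eq_iff hn _ _).mp e.symm
    exact ⟨h⁻¹, a, by rw [(scal_mul_eq_iff _ _ _).mp ha, itGL_conj_coe]⟩
  · rintro ⟨P, c, e⟩
    refine ⟨_, ⟨P⁻¹, rfl⟩, ?_⟩
    rw [conj_ofForm]
    refine ((ofForm_eq_iff hn _ _).mpr ⟨c, (scal_mul_eq_iff _ _ _).mpr ?_⟩).symm
    rw [itGL_conj_coe, inv_inv, e]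

theorem ofForm_sq (G : GLn) : ofForm G * ofForm G = innDiag n F (G⁻¹ * itGL n F G⁻¹) := by
  rw [ofForm, mul_assoc, ← mul_assoc (itAut n F), itAut_innDiag, mul_assoc, itAut_mul_self, mul_one, map_mul]

theorem ofForm_sq_eq_one_iff (hn : 2 ≤ n) (G : GLn) :
    ofForm G * ofForm G = 1 ↔ (G : Mn)ᵀ = G ∨ (G : Mn)ᵀ = -(G : Mn) := by
  rw [ofForm_sq, innDiag_eq_one_iff hn]
  have key : ∀ a : Fˣ, G⁻¹ * itGL n F G⁻¹ = scal n a ↔ (G : Mn)ᵀ = (a : F) • (G : Mn) := by
    intro a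
    rw [inv_mul_eq_iff_eq_mul, ← scal_comm, scal_mul_eq_iff, itGL_coe, inv_inv]
  simp only [key]
  constructor
  · rintro ⟨a, ha⟩
    have h2 : ((a : F) * a) • (G : Mn) = (G : Mn) := by
      have := congrArg Matrix.transpose ha
      rwa [transpose_transpose, transpose_smul, ha, smul_smul, eq_comm] at this
    have hne : (G : Mn) ≠ 0 := by
      intro h0
      have h1 : (G : Mn) * ((G⁻¹ : GLn) : Mn) = 1 := by
        rw [← Units.val_mul, mul_inv_cancel, Units.val_one]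
      rw [h0, Matrix.zero_mul] at h1
      have := congrFun (congrFun h1 ⟨0, by omega⟩) ⟨0, by omega⟩
      simp at this
    have h3 : (a : F) * a = 1 := smul_left_injective F hne (by simpa using h2)
    rcases mul_self_eq_one_iff.mp h3 with h | h
    · exact Or.inl (by rw [ha, h, one_smul])
    · exact Or.inr (by rw [ha, h, neg_one_smul])
  · rintro (h | h)
    · exact ⟨1, by rw [h, Units.val_one, one_smul]⟩
    · exact ⟨-1, by rw [h, Units.val_neg, Units.val_one, neg_one_smul]⟩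

theorem orderOf_ofForm_eq_two_iff (hn : 3 ≤ n) (G : GLn) :
    orderOf (ofForm G) = 2 ↔ (G : Mn)ᵀ = G ∨ (G : Mn)ᵀ = -(G : Mn) := by
  rw [← ofForm_sq_eq_one_iff (by omega), orderOf_eq_prime_iff, pow_two]
  refine and_iff_left fun h => semiAut_ne_mul_itAut hn 1 G⁻¹ (RingEquiv.refl F) (RingEquiv.refl F) ?_
  rw [semiAut_one_refl, ← innDiag_apply]
  exact h.symm

theorem exists_ofForm_two (hn : 3 ≤ n) {γ : MulAut PSLn} (h : Cfsg.IsGraphAutClassPSL γ)
    (h2 : orderOf γ = 2) :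
    ∃ G : GLn, γ = ofForm G ∧ ((G : Mn)ᵀ = G ∨ (G : Mn)ᵀ = -(G : Mn)) := by
  obtain ⟨G, rfl⟩ := exists_ofForm h
  exact ⟨G, rfl, (orderOf_ofForm_eq_two_iff hn G).mp h2⟩

theorem centralizer_ofForm_iff (hn : 2 ≤ n) (G h : GLn) :
    h ∈ (Subgroup.centralizer {ofForm G}).comap (innDiag n F) ↔ h ∈ formSim (G : Mn) := by
  rw [Subgroup.mem_comap, Subgroup.mem_centralizer_iff]
  simp only [Set.mem_singleton_iff, forall_eq]
  rw [show ofForm G * innDiag n F h = innDiag n F h * ofForm G ↔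
      innDiag n F h⁻¹ * ofForm G * (innDiag n F h⁻¹)⁻¹ = ofForm G by
    rw [map_inv, inv_inv, mul_assoc, inv_mul_eq_iff_eq_mul], conj_ofForm, eq_comm, ofForm_eq_iff hn]
  refine exists_congr fun c => ?_
  rw [scal_mul_eq_iff, itGL_conj_coe, inv_inv]

theorem comap_centralizer_eq (hn : 2 ≤ n) (G : GLn) :
    (Subgroup.centralizer {ofForm G}).comap (innDiag n F) = formSim (G : Mn) :=
  SetLike.ext (centralizer_ofForm_iff hn G)

theorem inf_centralizer_eq (hn : 2 ≤ n) (G : GLn) :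
    Cfsg.inndiagPSL n F ⊓ Subgroup.centralizer {ofForm G} = (formSim (G : Mn)).map (innDiag n F) := by
  rw [← comap_centralizer_eq hn, Subgroup.map_comap_eq, inndiagPSL_eq_range]

theorem innDiag_eq_one_iff_scalars (hn : 2 ≤ n) (h : GLn) :
    innDiag n F h = 1 ↔ h ∈ Geo.scalars (Fin n) F := by
  rw [innDiag_eq_one_iff hn, Geo.mem_scalars_iff]
  refine exists_congr fun a => ?_
  rw [← scal_coe]
  exact Units.ext_iff

/-- The centraliser is the projective quotient of any transported similarity group. -/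
theorem centralizer_equiv {ι : Type} [Fintype ι] [DecidableEq ι] (hn : 2 ≤ n) (G : GLn)
    (L : (Fin n → F) ≃ₗ[F] (ι → F)) (T : Subgroup (GL ι F))
    (hT : ∀ h, glConj L h ∈ T ↔ h ∈ formSim (G : Mn)) :
    Nonempty (↥(Cfsg.inndiagPSL n F ⊓ Subgroup.centralizer {ofForm G}) ≃* Cfsg.projQuot T) := by
  set ρ : T →* MulAut PSLn :=
    (innDiag n F).comp ((glConj L).symm.toMonoidHom.comp T.subtype) with hρ
  have hrange : ρ.range = Cfsg.inndiagPSL n F ⊓ Subgroup.centralizer {ofForm G} := by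
    rw [inf_centralizer_eq hn]
    refine le_antisymm ?_ ?_
    · rintro _ ⟨t, rfl⟩
      exact ⟨_, (hT _).mp (by simp), rfl⟩
    · rintro _ ⟨h, hh, rfl⟩
      exact ⟨⟨glConj L h, (hT h).mpr hh⟩, by simp [hρ]⟩
  have hker : ρ.ker = (Geo.scalars ι F).subgroupOf T := by
    ext t
    rw [MonoidHom.mem_ker, Subgroup.mem_subgroupOf, hρ]
    simp only [MonoidHom.comp_apply, MulEquiv.coe_toMonoidHom, Subgroup.coe_subtype]
    rw [innDiag_eq_one_iff_scalars hn, ← glConj_mem_scalars L, MulEquiv.apply_symm_apply]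
  exact ⟨((QuotientGroup.quotientMulEquivOfEq hker.symm).trans
    ((QuotientGroup.quotientKerEquivRange ρ).trans (MulEquiv.subgroupCongr hrange))).symm⟩

end Cfsg.Agent.H62.GraphPSL
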