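import Cfsg.Agent.H4.DiscClass
import Cfsg.Agent.H4.CharTwoForms
import Cfsg.Agent.H2.Basis
import Cfsg.Agent.H62.GraphPSL.Forms

/-!
Congruence classes of non-degenerate symmetric and alternating matrices over finite fields.
-/

set_option autoImplicit false
set_option linter.unusedSectionVars false

namespace Cfsg.Agent.H62.GraphPSL

open Matrix QuadraticMap Module Cfsg.Agent.H4

variable {n m : ℕ} {F : Type*} [Field F] [Finite F]

local notation "GLn" => GL (Fin n) F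
local notation "Mn" => Matrix (Fin n) (Fin n) F

/-- Alternating matrices. -/
def IsAltMat (A : Mn) : Prop := ∀ v, v ⬝ᵥ A *ᵥ v = 0

theorem det_ne_zero (G : GLn) : (G : Mn).det ≠ 0 := Matrix.GeneralLinearGroup.det_ne_zero G

theorem isAltMat_of_skew (h2 : (2 : F) ≠ 0) {A : Mn} (h : Aᵀ = -A) : IsAltMat A := fun v => by
  have e : v ⬝ᵥ A *ᵥ v = v ⬝ᵥ Aᵀ *ᵥ v := by
    rw [dotProduct_mulVec, ← mulVec_transpose, dotProduct_comm]
  rw [h, neg_mulVec, dotProduct_neg] at e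
  exact (mul_eq_zero.mp (show (2 : F) * (v ⬝ᵥ A *ᵥ v) = 0 by linear_combination e)).resolve_left h2

theorem IsAltMat.congr {A : Mn} (h : IsAltMat A) (P : Mn) (c : F) : IsAltMat (c • (Pᵀ * A * P)) :=
  fun v => by rw [smul_mulVec, dotProduct_smul, ← dot_mulVec_congr, h, smul_zero]

theorem bilin_nondeg {G : GLn} : (Matrix.toBilin' (G : Mn)).Nondegenerate :=
  LinearMap.BilinForm.nondegenerate_toBilin'_iff_det_ne_zero.mpr (det_ne_zero G)

/-- A non-degenerate alternating matrix is congruent to the standard one. -/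
theorem exists_equiv_symp {G : GLn} (hA : IsAltMat (G : Mn)) :
    ∃ (m : ℕ) (L : (Fin n → F) ≃ₗ[F] (Fin m ⊕ Fin m → F)), n = 2 * m ∧
      ∀ u v, Cfsg.sympForm m F (L u) (L v) = u ⬝ᵥ (G : Mn) *ᵥ v := by
  obtain ⟨m, e, hm, he⟩ := H2.exists_equiv_std (Matrix.toBilin' (G : Mn)) bilin_nondeg
    fun v => by rw [Matrix.toBilin'_apply']; exact hA v
  exact ⟨m, e, by simpa using hm, fun u v => by rw [he, Matrix.toBilin'_apply']⟩

theorem exists_equiv_symp' (hnm : n = 2 * m) {G : GLn} (hA : IsAltMat (G : Mn)) :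
    ∃ L : (Fin n → F) ≃ₗ[F] (Fin m ⊕ Fin m → F),
      ∀ u v, Cfsg.sympForm m F (L u) (L v) = u ⬝ᵥ (G : Mn) *ᵥ v := by
  obtain ⟨m', L, hm', hL⟩ := exists_equiv_symp hA
  obtain rfl : m' = m := by omega
  exact ⟨L, hL⟩

theorem congr_of_alt {G G' : GLn} (hA : IsAltMat (G : Mn)) (hA' : IsAltMat (G' : Mn)) :
    ∃ P : GLn, (P : Mn)ᵀ * G * P = G' := by
  obtain ⟨m, L, hm, hL⟩ := exists_equiv_symp hA
  obtain ⟨L', hL'⟩ := exists_equiv_symp' hm hA'
  obtain ⟨P, hP⟩ := exists_congr_of_equiv (A := (G' : Mn)) (B := (G : Mn)) (k := 1)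
    (L'.trans L.symm) fun u v => by
      rw [← hL, LinearEquiv.trans_apply, LinearEquiv.trans_apply, L.apply_symm_apply,
        L.apply_symm_apply, hL', one_mul]
  exact ⟨P, by rw [hP, one_smul]⟩

/-! ### Odd characteristic -/

/-- The quadratic form of a matrix. -/
def matQuad (A : Mn) : QuadraticForm F (Fin n → F) := LinearMap.BilinMap.toQuadraticMap (Matrix.toBilin' A)

theorem matQuad_apply (A : Mn) (v : Fin n → F) : matQuad A v = v ⬝ᵥ A *ᵥ v := by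
  simp [matQuad, Matrix.toBilin'_apply']

theorem polar_matQuad {A : Mn} (hA : Aᵀ = A) (u v : Fin n → F) :
    polar (matQuad A) u v = 2 * (u ⬝ᵥ A *ᵥ v) := by
  rw [matQuad, LinearMap.BilinMap.polar_toQuadraticMap, Matrix.toBilin'_apply', Matrix.toBilin'_apply']
  have : v ⬝ᵥ A *ᵥ u = u ⬝ᵥ A *ᵥ v := by
    rw [dotProduct_mulVec, ← mulVec_transpose, hA, dotProduct_comm]
  rw [this]; ring

theorem det_gram_matQuad {A : Mn} (hA : Aᵀ = A) :
    (H4.gram (matQuad A) (Pi.basisFun F (Fin n))).det = (2 : F) ^ n * A.det := by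
  have : H4.gram (matQuad A) (Pi.basisFun F (Fin n)) = (2 : F) • A := by
    ext i j
    simp [H4.gram, polar_matQuad hA]
  rw [this, Matrix.det_smul, Fintype.card_fin]

theorem nondeg_matQuad (h2 : (2 : F) ≠ 0) (G : GLn) (hG : (G : Mn)ᵀ = G) :
    (polarBilin (matQuad (G : Mn))).Nondegenerate := by
  refine (LinearMap.BilinForm.nondegenerate_iff_det_ne_zero (B := polarBilin (matQuad (G : Mn)))
    (Pi.basisFun F _)).2 ?_
  rw [← gram_eq_toMatrix, det_gram_matQuad hG]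
  exact mul_ne_zero (pow_ne_zero _ h2) (det_ne_zero G)

theorem congr_of_disc (h2 : (2 : F) ≠ 0) {G G' : GLn} (hG : (G : Mn)ᵀ = G) (hG' : (G' : Mn)ᵀ = G')
    {c : F} (hc : c ≠ 0) (hd : IsSquare (c ^ n * (G : Mn).det * (G' : Mn).det)) :
    ∃ P : GLn, (P : Mn)ᵀ * G * P = c • (G' : Mn) := by
  have hnd := nondegenerate_smul hc (nondeg_matQuad h2 G' hG')
  obtain ⟨g, hg⟩ := isom_of_disc h2 hnd (nondeg_matQuad h2 G hG) rfl (Pi.basisFun F (Fin n))
    (Pi.basisFun F (Fin n)) (by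
      rw [det_gram_smul, det_gram_matQuad hG, det_gram_matQuad hG', Fintype.card_fin]
      obtain ⟨r, hr⟩ := hd
      exact ⟨(2 : F) ^ n * r, by linear_combination ((2 : F) ^ n) ^ 2 * hr⟩)
  obtain ⟨P, hP⟩ := exists_GL_of_congr g
  refine ⟨P, ext_of_quad h2 ?_ ?_ fun v => ?_⟩
  · simp [transpose_mul, hG, Matrix.mul_assoc]
  · simp [hG']
  · rw [← dot_mulVec_congr, hP, ← matQuad_apply, hg, smul_mulVec, dotProduct_smul]
    simp [matQuad_apply]

theorem equiv_plus (h2 : (2 : F) ≠ 0) (hnm : n = 2 * m) {G : GLn} (hG : (G : Mn)ᵀ = G)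
    (hd : IsSquare ((-1 : F) ^ m * (G : Mn).det)) :
    ∃ L : (Fin n → F) ≃ₗ[F] (Fin m ⊕ Fin m → F),
      ∀ v, Cfsg.quadFormPlus m F (L v) = v ⬝ᵥ (G : Mn) *ᵥ v := by
  have h2n : (2 : F) ^ n = 2 ^ (2 * m) := congrArg _ hnm
  obtain ⟨g, hg⟩ := isom_of_disc h2 (nondeg_matQuad h2 G hG) (qPlus_nondegenerate (F := F) m)
    (by simp; omega) (Pi.basisFun F (Fin n)) (Pi.basisFun F _) (by
      rw [det_gram_matQuad hG, det_gram_qPlus]
      obtain ⟨r, hr⟩ := hd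
      exact ⟨(2 : F) ^ m * r, by rw [h2n]; linear_combination ((2 : F) ^ m) ^ 2 * hr⟩)
  exact ⟨g, fun v => by rw [← matQuad_apply, ← hg v, coe_qPlus]⟩

theorem equiv_minus (h2 : (2 : F) ≠ 0) (hnm : n = 2 * m) {G : GLn} (hG : (G : Mn)ᵀ = G)
    (hd : ¬ IsSquare ((-1 : F) ^ m * (G : Mn).det)) :
    ∃ (a b : F) (L : (Fin n → F) ≃ₗ[F] ((Fin (m - 1) ⊕ Fin (m - 1)) ⊕ Fin 2 → F)),
      (∀ z₁ z₂ : F, z₁ ^ 2 + a * z₁ * z₂ + b * z₂ ^ 2 = 0 → z₁ = 0 ∧ z₂ = 0) ∧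
      ∀ v, Cfsg.quadFormMinus (m - 1) F a b (L v) = v ⬝ᵥ (G : Mn) *ᵥ v := by
  have hV : finrank F (Fin n → F) = 2 * m := by simp [hnm]
  have h2n : (2 : F) ^ n = 2 ^ (2 * m) := congrArg _ hnm
  have hno : ¬ ∃ W : Submodule F (Fin n → F), (∀ w ∈ W, matQuad (G : Mn) w = 0) ∧ finrank F W = m := by
    rw [singular_iff_isSquare h2 (nondeg_matQuad h2 G hG) hV (Pi.basisFun F (Fin n)),
      det_gram_matQuad hG]
    rintro ⟨r, hr⟩
    refine hd ⟨r / (2 : F) ^ m, ?_⟩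
    rw [h2n, two_mul m, pow_add] at hr
    field_simp
    linear_combination hr
  obtain ⟨ζ, g, hζ, hg⟩ := isom_qMinus_of_no_singular (nondeg_matQuad h2 G hG) hV hno
  exact ⟨1, ζ, g, anisotropic_of_no_root hζ, fun v => by rw [← matQuad_apply, ← hg v, coe_qMinus]⟩

theorem equiv_odd (h2 : (2 : F) ≠ 0) (hnm : n = 2 * m + 1) {G : GLn} (hG : (G : Mn)ᵀ = G) :
    ∃ (k : F) (L : (Fin n → F) ≃ₗ[F] (Unit ⊕ (Fin m ⊕ Fin m) → F)), k ≠ 0 ∧
      ∀ v, Cfsg.quadFormOdd m F (L v) = k * (v ⬝ᵥ (G : Mn) *ᵥ v) := by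
  set k : F := (2 : F) ^ n * (G : Mn).det * (2 * (-1) ^ m) with hk
  have hk0 : k ≠ 0 := by
    simp only [hk]
    exact mul_ne_zero (mul_ne_zero (pow_ne_zero _ h2) (det_ne_zero G))
      (mul_ne_zero h2 (pow_ne_zero _ (neg_ne_zero.mpr one_ne_zero)))
  obtain ⟨g, hg⟩ := isom_of_disc h2 (nondegenerate_smul hk0 (nondeg_matQuad h2 G hG))
    (qOdd_nondegenerate h2 m) (by simp; omega) (Pi.basisFun F (Fin n)) (Pi.basisFun F _) (by
      rw [det_gram_smul, det_gram_matQuad hG, det_gram_qOdd, Fintype.card_fin]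
      refine ⟨k ^ (m + 1), ?_⟩
      have hkn : k ^ n * k = k ^ (m + 1) * k ^ (m + 1) := by
        rw [← pow_succ, ← pow_add]; congr 1; omega
      rw [← hkn, hk]; ring)
  exact ⟨k, g, hk0, fun v => by rw [← matQuad_apply, ← coe_qOdd, hg v]; rfl⟩

/-! ### Characteristic two -/

/-- Symmetric non-alternating matrices are congruent to the identity. -/
theorem congr_one_char_two (h2 : (2 : F) = 0) {G : GLn} (hG : (G : Mn)ᵀ = G)
    (hna : ¬ IsAltMat (G : Mn)) :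
    ∃ P : GLn, (P : Mn)ᵀ * G * P = 1 := by
  have hS : (Matrix.toBilin' (G : Mn)).IsSymm := ⟨fun u v => by
    rw [Matrix.toBilin'_apply', Matrix.toBilin'_apply', dotProduct_mulVec, ← mulVec_transpose, hG,
      dotProduct_comm]⟩
  obtain ⟨v, hv⟩ := not_forall.mp hna
  obtain ⟨b, hb⟩ := exists_orthonormal_basis_char_two h2 hS bilin_nondeg
    ⟨v, by rwa [Matrix.toBilin'_apply']⟩ (Module.finrank_fin_fun F (n := n))
  obtain ⟨P, hP⟩ := exists_congr_of_equiv (A := (1 : Mn)) (B := (G : Mn)) (k := 1) b.equivFun.symm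
    fun u v => by
      rw [← Matrix.toBilin'_apply', b.equivFun_symm_apply, b.equivFun_symm_apply]
      simp [hb, dotProduct]
      exact Finset.sum_congr rfl fun x _ => mul_comm _ _
  exact ⟨P, by rw [hP, one_smul]⟩

theorem congr_of_nonalt (h2 : (2 : F) = 0) {G G' : GLn} (hG : (G : Mn)ᵀ = G) (hG' : (G' : Mn)ᵀ = G')
    (h : ¬ IsAltMat (G : Mn)) (h' : ¬ IsAltMat (G' : Mn)) :
    ∃ P : GLn, (P : Mn)ᵀ * G * P = G' := by
  obtain ⟨P, hP⟩ := congr_one_char_two h2 hG h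
  obtain ⟨Q, hQ⟩ := congr_one_char_two h2 hG' h'
  refine ⟨P * Q⁻¹, ?_⟩
  have hQ1 : (Q : Mn) * ((Q⁻¹ : GLn) : Mn) = 1 := by
    rw [← Units.val_mul, mul_inv_cancel, Units.val_one]
  calc ((P * Q⁻¹ : GLn) : Mn)ᵀ * G * ((P * Q⁻¹ : GLn) : Mn)
      = ((Q⁻¹ : GLn) : Mn)ᵀ * ((P : Mn)ᵀ * G * P) * ((Q⁻¹ : GLn) : Mn) := by
        simp only [Units.val_mul, transpose_mul, Matrix.mul_assoc]
    _ = ((Q⁻¹ : GLn) : Mn)ᵀ * ((Q : Mn)ᵀ * G' * Q) * ((Q⁻¹ : GLn) : Mn) := by rw [hP, hQ]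
    _ = ((Q : Mn) * ((Q⁻¹ : GLn) : Mn))ᵀ * G' * ((Q : Mn) * ((Q⁻¹ : GLn) : Mn)) := by
        simp only [transpose_mul, Matrix.mul_assoc]
    _ = G' := by rw [hQ1, transpose_one, Matrix.one_mul, Matrix.mul_one]

end Cfsg.Agent.H62.GraphPSL
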