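import Cfsg.Agent.H62.GraphPSL.CharTwo
import Cfsg.Agent.H62.GraphPSL.Classify

/-!
Representatives of the classes of involutory graph automorphisms of `PSL_n` and their centralisers.
-/

set_option autoImplicit false
set_option linter.unusedSectionVars false

namespace Cfsg.Agent.H62.GraphPSL

open Matrix Cfsg.Agent.H70.AutPSL

variable {n m : ℕ} {F : Type*} [Field F] [Finite F]

local notation "GLn" => GL (Fin n) F
local notation "Mn" => Matrix (Fin n) (Fin n) F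

theorem reindex_bilin {ι : Type} [Fintype ι] [DecidableEq ι] (e : Fin n ≃ ι) (K : Matrix ι ι F)
    (u v : Fin n → F) :
    (LinearEquiv.funCongrLeft F F e.symm u) ⬝ᵥ K *ᵥ (LinearEquiv.funCongrLeft F F e.symm v) =
      u ⬝ᵥ (K.submatrix e e) *ᵥ v := by
  rw [Matrix.submatrix_mulVec_equiv]
  simp only [dotProduct]
  rw [← e.sum_comp]
  exact Finset.sum_congr rfl fun i _ => by simp [LinearEquiv.funCongrLeft_apply, LinearMap.funLeft, Function.comp]

/-- A matrix on a reindexed space as an invertible matrix. -/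
noncomputable def ofReindex {ι : Type} [Fintype ι] [DecidableEq ι] (e : Fin n ≃ ι) (K : Matrix ι ι F)
    (hK : K.det ≠ 0) : GLn :=
  Matrix.GeneralLinearGroup.mkOfDetNeZero (K.submatrix e e) (by rwa [Matrix.det_submatrix_equiv_self])

theorem ofReindex_coe {ι : Type} [Fintype ι] [DecidableEq ι] (e : Fin n ≃ ι) (K : Matrix ι ι F)
    (hK : K.det ≠ 0) : ((ofReindex e K hK : GLn) : Mn) = K.submatrix e e := rfl

theorem finEven (hnm : n = 2 * m) : Nonempty (Fin n ≃ Fin m ⊕ Fin m) :=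
  ⟨(finCongr (by omega)).trans finSumFinEquiv.symm⟩

theorem finOdd (hnm : n = 2 * m + 1) : Nonempty (Fin n ≃ Unit ⊕ (Fin m ⊕ Fin m)) :=
  ⟨Fintype.equivOfCardEq (by simp; omega)⟩

theorem det_J_ne_zero : (Matrix.J (Fin m) F).det ≠ 0 := (Matrix.isUnit_det_J _ _).ne_zero

/-- The standard alternating form exists. -/
theorem exists_altForm (hnm : n = 2 * m) :
    ∃ G : GLn, (G : Mn)ᵀ = -(G : Mn) ∧ IsAltMat (G : Mn) := by
  obtain ⟨e⟩ := finEven hnm
  refine ⟨ofReindex e (Matrix.J (Fin m) F) det_J_ne_zero, ?_, fun v => ?_⟩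
  · rw [ofReindex_coe, transpose_submatrix, J_transpose, submatrix_neg]
    rfl
  · rw [ofReindex_coe, ← reindex_bilin]
    show Cfsg.sympForm m F _ _ = 0
    exact H2.sympForm_self _

theorem diag_form (hn : 1 ≤ n) {d : F} (hd : d ≠ 0) :
    ∃ G : GLn, (G : Mn)ᵀ = G ∧ (G : Mn).det = d := by
  refine ⟨Matrix.GeneralLinearGroup.mkOfDetNeZero (diagonal fun i => if i = ⟨0, hn⟩ then d else 1)
    (by simp [det_diagonal, hd]), ?_, ?_⟩
  · simp [Matrix.GeneralLinearGroup.mkOfDetNeZero]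
  · simp [det_diagonal, Matrix.GeneralLinearGroup.mkOfDetNeZero]

/-! ### Conjugacy -/

theorem conj_of_congr (hn : 2 ≤ n) {G G' : GLn} {P : GLn} {c : F} (hc : c ≠ 0)
    (h : (P : Mn)ᵀ * G * P = c • (G' : Mn)) :
    Cfsg.IsConjUnder (Cfsg.inndiagPSL n F) (ofForm G) (ofForm G') :=
  (isConjUnder_ofForm_iff hn G G').mpr
    ⟨P, (Units.mk0 c hc)⁻¹, by rw [h, smul_smul, Units.val_inv_eq_inv_val, Units.val_mk0,
      inv_mul_cancel₀ hc, one_smul]⟩

theorem conj_alt (hn : 2 ≤ n) {G G' : GLn} (hG : IsAltMat (G : Mn)) (hG' : IsAltMat (G' : Mn)) :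
    Cfsg.IsConjUnder (Cfsg.inndiagPSL n F) (ofForm G) (ofForm G') := by
  obtain ⟨P, hP⟩ := congr_of_alt hG hG'
  exact conj_of_congr hn one_ne_zero (hP.trans (one_smul F _).symm)

theorem conj_nonalt (hn : 2 ≤ n) (h2 : (2 : F) = 0) {G G' : GLn} (hG : (G : Mn)ᵀ = G)
    (hG' : (G' : Mn)ᵀ = G') (h : ¬ IsAltMat (G : Mn)) (h' : ¬ IsAltMat (G' : Mn)) :
    Cfsg.IsConjUnder (Cfsg.inndiagPSL n F) (ofForm G) (ofForm G') := by
  obtain ⟨P, hP⟩ := congr_of_nonalt h2 hG hG' h h'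
  exact conj_of_congr hn one_ne_zero (hP.trans (one_smul F _).symm)

theorem alt_of_conj (hn : 2 ≤ n) {G G' : GLn}
    (h : Cfsg.IsConjUnder (Cfsg.inndiagPSL n F) (ofForm G) (ofForm G')) (hG : IsAltMat (G : Mn)) :
    IsAltMat (G' : Mn) := by
  obtain ⟨P, c, e⟩ := (isConjUnder_ofForm_iff hn G G').mp h
  rw [e]
  exact hG.congr _ _

theorem disc_of_conj (hn : 2 ≤ n) (hnm : n = 2 * m) {G G' : GLn} {s : F}
    (h : Cfsg.IsConjUnder (Cfsg.inndiagPSL n F) (ofForm G) (ofForm G'))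
    (hG : IsSquare (s * (G : Mn).det)) : IsSquare (s * (G' : Mn).det) := by
  obtain ⟨P, c, e⟩ := (isConjUnder_ofForm_iff hn G G').mp h
  obtain ⟨r, hr⟩ := hG
  refine ⟨(c : F) ^ m * (P : Mn).det * r, ?_⟩
  have hc : (c : F) ^ n = ((c : F) ^ m) ^ 2 := by rw [← pow_mul, hnm, mul_comm]
  rw [e, Matrix.det_smul, Matrix.det_mul, Matrix.det_mul, Matrix.det_transpose, Fintype.card_fin, hc]
  linear_combination ((c : F) ^ m * (P : Mn).det) ^ 2 * hr

theorem sym_not_alt (h2 : (2 : F) ≠ 0) (hn : 1 ≤ n) {G : GLn} (hG : (G : Mn)ᵀ = G) :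
    ¬ IsAltMat (G : Mn) := by
  intro hA
  refine gl_ne_zero hn G (ext_of_quad h2 hG transpose_zero fun v => ?_)
  rw [hA v, zero_mulVec, dotProduct_zero]

/-! ### Centralisers -/

theorem centralizer_symp (hn : 2 ≤ n) (hnm : n = 2 * m) {G : GLn} (hG : IsAltMat (G : Mn)) :
    Nonempty (↥(Cfsg.inndiagPSL n F ⊓ Subgroup.centralizer {ofForm G}) ≃* Cfsg.PGSp m F) := by
  obtain ⟨L, hL⟩ := exists_equiv_symp' hnm hG
  exact centralizer_equiv hn G L (Cfsg.GSp m F)
    fun h => glConj_mem_similarity L one_ne_zero (fun u v => (hL u v).trans (one_mul _).symm) h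

theorem centralizer_plus (hn : 2 ≤ n) (h2 : (2 : F) ≠ 0) (hnm : n = 2 * m) {G : GLn}
    (hG : (G : Mn)ᵀ = G) (hd : IsSquare ((-1 : F) ^ m * (G : Mn).det)) :
    Nonempty (↥(Cfsg.inndiagPSL n F ⊓ Subgroup.centralizer {ofForm G}) ≃*
      Cfsg.PGO F (Cfsg.quadFormPlus m F)) := by
  obtain ⟨L, hL⟩ := equiv_plus h2 hnm hG hd
  exact centralizer_equiv hn G L _
    fun h => glConj_mem_quadSimilarity h2 hG L one_ne_zero (fun v => (hL v).trans (one_mul _).symm) h

theorem centralizer_minus (hn : 2 ≤ n) (h2 : (2 : F) ≠ 0) (hnm : n = 2 * m) {G : GLn}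
    (hG : (G : Mn)ᵀ = G) (hd : ¬ IsSquare ((-1 : F) ^ m * (G : Mn).det)) :
    ∃ a b : F, (∀ z₁ z₂ : F, z₁ ^ 2 + a * z₁ * z₂ + b * z₂ ^ 2 = 0 → z₁ = 0 ∧ z₂ = 0) ∧
      Nonempty (↥(Cfsg.inndiagPSL n F ⊓ Subgroup.centralizer {ofForm G}) ≃*
        Cfsg.PGO F (Cfsg.quadFormMinus (m - 1) F a b)) := by
  obtain ⟨a, b, L, hab, hL⟩ := equiv_minus h2 hnm hG hd
  exact ⟨a, b, hab, centralizer_equiv hn G L _
    fun h => glConj_mem_quadSimilarity h2 hG L one_ne_zero (fun v => (hL v).trans (one_mul _).symm) h⟩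

theorem centralizer_oddDim (hn : 2 ≤ n) (h2 : (2 : F) ≠ 0) (hnm : n = 2 * m + 1) {G : GLn}
    (hG : (G : Mn)ᵀ = G) :
    Nonempty (↥(Cfsg.inndiagPSL n F ⊓ Subgroup.centralizer {ofForm G}) ≃*
      Cfsg.PGO F (Cfsg.quadFormOdd m F)) := by
  obtain ⟨k, L, hk, hL⟩ := equiv_odd h2 hnm hG
  exact centralizer_equiv hn G L _ fun h => glConj_mem_quadSimilarity h2 hG L hk hL h

theorem centralizer_sp_char_two [CharP F 2] (hn : 2 ≤ n) (hnm : n = 2 * m) {G : GLn}
    (hG : IsAltMat (G : Mn)) :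
    Nonempty (↥(Cfsg.inndiagPSL n F ⊓ Subgroup.centralizer {ofForm G}) ≃*
      Matrix.symplecticGroup (Fin m) F) := by
  obtain ⟨L, hL⟩ := exists_equiv_symp' hnm hG
  obtain ⟨e₁⟩ := centralizer_equiv_iso hn G
  obtain ⟨e₂⟩ := formIso_equiv (G := (G : Mn)) (K := Matrix.J (Fin m) F) L hL
  obtain ⟨e₃⟩ := formIso_J_equiv (F := F) (m := m)
  exact ⟨(e₁.trans e₂).trans e₃⟩

theorem centralizer_oddDim_char_two [CharP F 2] (hn : 2 ≤ n) (hnm : n = 2 * m + 1) {G : GLn}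
    (hG : (G : Mn)ᵀ = G) (hna : ¬ IsAltMat (G : Mn)) :
    Nonempty (↥(Cfsg.inndiagPSL n F ⊓ Subgroup.centralizer {ofForm G}) ≃*
      Cfsg.PGO F (Cfsg.quadFormOdd m F)) := by
  obtain ⟨e⟩ := finOdd hnm
  have hdet : (oddMat m F).det ≠ 0 := by
    rw [oddMat, det_fromBlocks_zero₂₁, det_one, one_mul]; exact det_J_ne_zero
  set G' : GLn := ofReindex e (oddMat m F) hdet with hG'
  have hsym : (G' : Mn)ᵀ = G' := by
    rw [hG', ofReindex_coe, transpose_submatrix, oddMat, fromBlocks_transpose, transpose_one,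
      transpose_zero, transpose_zero, J_transpose,
      show -Matrix.J (Fin m) F = Matrix.J (Fin m) F by ext i j; simp [CharTwo.neg_eq]]
  have hna' : ¬ IsAltMat (G' : Mn) := fun h => by
    have := h (Pi.single (e.symm (.inl ())) 1)
    rw [hG', ofReindex_coe, ← reindex_bilin, oddMat_quad] at this
    simp [LinearEquiv.funCongrLeft_apply, LinearMap.funLeft] at this
  obtain ⟨P, hP⟩ := congr_of_nonalt CharTwo.two_eq_zero hsym hG hna' hna
  obtain ⟨e₁⟩ := centralizer_equiv_iso hn G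
  let LP : (Fin n → F) ≃ₗ[F] (Fin n → F) :=
    LinearMap.GeneralLinearGroup.generalLinearEquiv F _ (Matrix.GeneralLinearGroup.toLin P)
  have hLP : ∀ v, LP v = (P : Mn) *ᵥ v := fun v => rfl
  obtain ⟨e₂⟩ := formIso_equiv (G := (G : Mn)) (K := oddMat m F)
    (LP.trans (LinearEquiv.funCongrLeft F F e.symm)) fun u v => by
      rw [LinearEquiv.trans_apply, LinearEquiv.trans_apply, reindex_bilin, hLP, hLP,
        ← ofReindex_coe e (oddMat m F) hdet, ← hG', dot_mulVec_congr, hP]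
  obtain ⟨e₃⟩ := formIso_oddMat_equiv (F := F) (m := m)
  obtain ⟨e₄⟩ := pgoOdd_equiv_sp (F := F) (m := m)
  exact ⟨((e₁.trans e₂).trans e₃).trans e₄.symm⟩

/-- The non-alternating class in characteristic two, even dimension. -/
theorem exists_nonaltForm [CharP F 2] [NeZero m] (hn : 2 ≤ n) (hnm : n = 2 * m) :
    ∃ G : GLn, (G : Mn)ᵀ = G ∧ ¬ IsAltMat (G : Mn) ∧
      Nonempty (↥(Cfsg.inndiagPSL n F ⊓ Subgroup.centralizer {ofForm G}) ≃*
        Subgroup.centralizer ({⟨transMat m F, transMat_mem⟩} : Set (Matrix.symplecticGroup (Fin m) F))) := by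
  obtain ⟨e⟩ := finEven hnm
  have hdet : (evenMat m F).det ≠ 0 := by
    rw [evenMat, det_mul]
    exact mul_ne_zero det_J_ne_zero (SymplecticGroup.symplectic_det transMat_mem).ne_zero
  refine ⟨ofReindex e (evenMat m F) hdet, ?_, fun h => ?_, ?_⟩
  · rw [ofReindex_coe, transpose_submatrix, evenMat, J_mul_transMat, transpose_add, transpose_single,
      J_transpose, show -Matrix.J (Fin m) F = Matrix.J (Fin m) F by ext i j; simp [CharTwo.neg_eq]]
  · have := h (Pi.single (e.symm (.inl 0)) 1)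
    rw [ofReindex_coe, ← reindex_bilin, evenMat, J_mul_transMat, add_mulVec, dotProduct_add, diag_alt] at this
    simp [single_mulVec, Function.update_apply, dotProduct, LinearEquiv.funCongrLeft_apply, LinearMap.funLeft] at this
  · obtain ⟨e₁⟩ := centralizer_equiv_iso hn (ofReindex e (evenMat m F) hdet)
    obtain ⟨e₂⟩ := formIso_equiv (G := ((ofReindex e (evenMat m F) hdet : GLn) : Mn)) (K := evenMat m F)
      (LinearEquiv.funCongrLeft F F e.symm) fun u v => reindex_bilin e _ u v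
    obtain ⟨e₃⟩ := formIso_evenMat_equiv (F := F) (m := m)
    exact ⟨(e₁.trans e₂).trans e₃⟩

end Cfsg.Agent.H62.GraphPSL
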