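import Cfsg.Agent.H4.SquareClass
import Cfsg.Agent.H62.GraphPSL.Classes

/-!
The classes of involutory graph automorphisms of `PSL_n`.
-/

set_option autoImplicit false
set_option linter.unusedSectionVars false

namespace Cfsg.Agent.H62.GraphPSL

open Matrix Cfsg.Agent.H70.AutPSL

variable {n m : ℕ} {F : Type*} [Field F] [Finite F]

local notation "PSLn" => Matrix.ProjectiveSpecialLinearGroup (Fin n) F
local notation "GLn" => GL (Fin n) F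
local notation "Mn" => Matrix (Fin n) (Fin n) F

theorem char_two_of (h2 : (2 : F) = 0) : CharP F 2 :=
  CharTwo.of_one_ne_zero_of_two_eq_zero one_ne_zero h2

theorem neg_eq_self (h2 : (2 : F) = 0) (A : Mn) : -A = A := by
  haveI := char_two_of h2
  ext i j
  simp [CharTwo.neg_eq]

theorem not_alt_of_odd (hnm : n = 2 * m + 1) (G : GLn) : ¬ IsAltMat (G : Mn) := fun h => by
  obtain ⟨m', -, h', -⟩ := exists_equiv_symp h
  omega

theorem sym_of_odd (hnm : n = 2 * m + 1) {G : GLn} (h : (G : Mn)ᵀ = G ∨ (G : Mn)ᵀ = -(G : Mn)) :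
    (G : Mn)ᵀ = G := by
  rcases h with h | h
  · exact h
  · by_cases h2 : (2 : F) = 0
    · rw [h, neg_eq_self h2]
    · exact absurd (isAltMat_of_skew h2 h) (not_alt_of_odd hnm G)

theorem odd_dim_result (hn : 3 ≤ n) (hnm : n = 2 * m + 1) {γ γ' : MulAut PSLn}
    (hγ : Cfsg.IsGraphAutClassPSL γ) (hγ2 : orderOf γ = 2) (hγ' : Cfsg.IsGraphAutClassPSL γ')
    (hγ'2 : orderOf γ' = 2) :
    Nonempty (↥(Cfsg.inndiagPSL n F ⊓ Subgroup.centralizer {γ}) ≃* Cfsg.PGO F (Cfsg.quadFormOdd m F)) ∧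
      Cfsg.IsConjUnder (Cfsg.inndiagPSL n F) γ γ' := by
  obtain ⟨G, rfl, hG⟩ := exists_ofForm_two hn hγ hγ2
  obtain ⟨G', rfl, hG'⟩ := exists_ofForm_two hn hγ' hγ'2
  have hs := sym_of_odd hnm hG
  have hs' := sym_of_odd hnm hG'
  have hn2 : 2 ≤ n := by omega
  by_cases h2 : (2 : F) = 0
  · haveI := char_two_of h2
    exact ⟨centralizer_oddDim_char_two hn2 hnm hs (not_alt_of_odd hnm G),
      conj_nonalt hn2 h2 hs hs' (not_alt_of_odd hnm G) (not_alt_of_odd hnm G')⟩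
  · refine ⟨centralizer_oddDim hn2 h2 hnm hs, ?_⟩
    set c : F := (G : Mn).det * (G' : Mn).det with hc
    have hc0 : c ≠ 0 := mul_ne_zero (det_ne_zero G) (det_ne_zero G')
    obtain ⟨P, hP⟩ := congr_of_disc h2 hs hs' hc0 (⟨c ^ (m + 1), by
      rw [mul_assoc, ← hc, ← pow_succ, ← pow_add]; congr 1; omega⟩ :
        IsSquare (c ^ n * (G : Mn).det * (G' : Mn).det))
    exact conj_of_congr hn2 hc0 hP

theorem even_odd_q_result [Fintype F] (hodd : Odd (Fintype.card F)) (hm : 2 ≤ m) (hnm : n = 2 * m) :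
    ∃ (γ₁ γ₂ γ₃ : MulAut PSLn) (a b : F),
      (∀ z₁ z₂ : F, z₁ ^ 2 + a * z₁ * z₂ + b * z₂ ^ 2 = 0 → z₁ = 0 ∧ z₂ = 0) ∧
      Cfsg.IsGraphAutClassPSL γ₁ ∧ orderOf γ₁ = 2 ∧ Cfsg.IsGraphAutClassPSL γ₂ ∧ orderOf γ₂ = 2 ∧
      Cfsg.IsGraphAutClassPSL γ₃ ∧ orderOf γ₃ = 2 ∧
      ¬ Cfsg.IsConjUnder (Cfsg.inndiagPSL n F) γ₁ γ₂ ∧ ¬ Cfsg.IsConjUnder (Cfsg.inndiagPSL n F) γ₁ γ₃ ∧
      ¬ Cfsg.IsConjUnder (Cfsg.inndiagPSL n F) γ₂ γ₃ ∧
      (∀ γ : MulAut PSLn, Cfsg.IsGraphAutClassPSL γ → orderOf γ = 2 →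
        Cfsg.IsConjUnder (Cfsg.inndiagPSL n F) γ₁ γ ∨ Cfsg.IsConjUnder (Cfsg.inndiagPSL n F) γ₂ γ ∨
          Cfsg.IsConjUnder (Cfsg.inndiagPSL n F) γ₃ γ) ∧
      Nonempty (↥(Cfsg.inndiagPSL n F ⊓ Subgroup.centralizer {γ₁}) ≃* Cfsg.PGSp m F) ∧
      Nonempty (↥(Cfsg.inndiagPSL n F ⊓ Subgroup.centralizer {γ₂}) ≃* Cfsg.PGO F (Cfsg.quadFormPlus m F)) ∧
      Nonempty (↥(Cfsg.inndiagPSL n F ⊓ Subgroup.centralizer {γ₃}) ≃*
        Cfsg.PGO F (Cfsg.quadFormMinus (m - 1) F a b)) := by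
  have h2 : (2 : F) ≠ 0 := H4.two_ne_zero_of_odd_card hodd
  have hn3 : 3 ≤ n := by omega
  have hn2 : 2 ≤ n := by omega
  obtain ⟨α, hα⟩ := FiniteField.exists_nonsquare (F := F) fun hc => h2 (by
    haveI : CharP F 2 := (ringChar.eq_iff).1 hc
    exact CharTwo.two_eq_zero)
  have hα0 : α ≠ 0 := fun h => hα (h ▸ IsSquare.zero)
  have hs1 : ((-1 : F) ^ m) * (-1) ^ m = 1 := by rw [← mul_pow, neg_mul_neg, one_mul, one_pow]
  obtain ⟨G₁, h1s, h1a⟩ := exists_altForm (F := F) hnm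
  obtain ⟨G₂, h2s, h2d⟩ := diag_form (n := n) (by omega) (pow_ne_zero m (neg_ne_zero.mpr (one_ne_zero (α := F))))
  obtain ⟨G₃, h3s, h3d⟩ := diag_form (n := n) (by omega)
    (mul_ne_zero (pow_ne_zero m (neg_ne_zero.mpr (one_ne_zero (α := F)))) hα0)
  have h2q : IsSquare ((-1 : F) ^ m * (G₂ : Mn).det) := by rw [h2d, hs1]; exact IsSquare.one
  have h3q : ¬ IsSquare ((-1 : F) ^ m * (G₃ : Mn).det) := by rw [h3d, ← mul_assoc, hs1, one_mul]; exact hα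
  obtain ⟨a, b, hab, hC3⟩ := centralizer_minus hn2 h2 hnm h3s h3q
  refine ⟨ofForm G₁, ofForm G₂, ofForm G₃, a, b, hab, isGraph_ofForm hn3 _,
    (orderOf_ofForm_eq_two_iff hn3 _).mpr (Or.inr h1s), isGraph_ofForm hn3 _,
    (orderOf_ofForm_eq_two_iff hn3 _).mpr (Or.inl h2s), isGraph_ofForm hn3 _,
    (orderOf_ofForm_eq_two_iff hn3 _).mpr (Or.inl h3s),
    fun h => sym_not_alt h2 (by omega) h2s (alt_of_conj hn2 h h1a),
    fun h => sym_not_alt h2 (by omega) h3s (alt_of_conj hn2 h h1a),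
    fun h => h3q (disc_of_conj hn2 hnm h h2q), ?_, centralizer_symp hn2 hnm h1a,
    centralizer_plus hn2 h2 hnm h2s h2q, hC3⟩
  intro γ hγ hγ2
  obtain ⟨G, rfl, hG | hG⟩ := exists_ofForm_two hn3 hγ hγ2
  · refine Or.inr ?_
    by_cases hd : IsSquare ((-1 : F) ^ m * (G : Mn).det)
    · left
      obtain ⟨P, hP⟩ := congr_of_disc h2 h2s hG one_ne_zero (c := 1) (by
        rw [one_pow, one_mul, h2d]; exact hd)
      exact conj_of_congr hn2 one_ne_zero hP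
    · right
      obtain ⟨P, hP⟩ := congr_of_disc h2 h3s hG one_ne_zero (c := 1) (by
        rw [one_pow, one_mul, h3d, mul_comm ((-1 : F) ^ m) α, mul_assoc]
        exact H4.isSquare_mul_of_not hα hd)
      exact conj_of_congr hn2 one_ne_zero hP
  · exact Or.inl (conj_alt hn2 h1a (isAltMat_of_skew h2 hG))

theorem even_char_two_result [CharP F 2] (hm : 2 ≤ m) (hnm : n = 2 * m) :
    ∃ (γ₁ γ₃ : MulAut PSLn) (t : ↥(Matrix.symplecticGroup (Fin m) F)),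
      Cfsg.IsTransvection (t : Matrix (Fin m ⊕ Fin m) (Fin m ⊕ Fin m) F) ∧
      Cfsg.IsGraphAutClassPSL γ₁ ∧ orderOf γ₁ = 2 ∧ Cfsg.IsGraphAutClassPSL γ₃ ∧ orderOf γ₃ = 2 ∧
      ¬ Cfsg.IsConjUnder (Cfsg.inndiagPSL n F) γ₁ γ₃ ∧
      (∀ γ : MulAut PSLn, Cfsg.IsGraphAutClassPSL γ → orderOf γ = 2 →
        Cfsg.IsConjUnder (Cfsg.inndiagPSL n F) γ₁ γ ∨ Cfsg.IsConjUnder (Cfsg.inndiagPSL n F) γ₃ γ) ∧
      Nonempty (↥(Cfsg.inndiagPSL n F ⊓ Subgroup.centralizer {γ₁}) ≃* ↥(Matrix.symplecticGroup (Fin m) F)) ∧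
      Nonempty (↥(Cfsg.inndiagPSL n F ⊓ Subgroup.centralizer {γ₃}) ≃*
        ↥(Subgroup.centralizer ({t} : Set ↥(Matrix.symplecticGroup (Fin m) F)))) := by
  haveI : NeZero m := ⟨by omega⟩
  have h2 : (2 : F) = 0 := CharTwo.two_eq_zero
  have hn3 : 3 ≤ n := by omega
  have hn2 : 2 ≤ n := by omega
  obtain ⟨G₁, h1s, h1a⟩ := exists_altForm (F := F) hnm
  obtain ⟨G₃, h3s, h3a, hC3⟩ := exists_nonaltForm (F := F) hn2 hnm
  refine ⟨ofForm G₁, ofForm G₃, ⟨transMat m F, transMat_mem⟩, isTransvection_transMat,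
    isGraph_ofForm hn3 _, (orderOf_ofForm_eq_two_iff hn3 _).mpr (Or.inr h1s),
    isGraph_ofForm hn3 _, (orderOf_ofForm_eq_two_iff hn3 _).mpr (Or.inl h3s),
    fun h => h3a (alt_of_conj hn2 h h1a), ?_, centralizer_sp_char_two hn2 hnm h1a, hC3⟩
  intro γ hγ hγ2
  obtain ⟨G, rfl, hG⟩ := exists_ofForm_two hn3 hγ hγ2
  have hs : (G : Mn)ᵀ = G := hG.elim id fun h => by rw [h, neg_eq_self h2]
  by_cases hA : IsAltMat (G : Mn)
  · exact Or.inl (conj_alt hn2 h1a hA)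
  · exact Or.inr (conj_nonalt hn2 h2 h3s hs h3a hA)

theorem itAut_eq_ofForm : itAut n F = ofForm (1 : GLn) := by
  rw [ofForm, inv_one, map_one, one_mul]

theorem inverse_transpose_result [Fintype F] (hodd : Odd (Fintype.card F)) (hm : 2 ≤ m) (hnm : n = 2 * m)
    {ι : MulAut PSLn} (hι : Cfsg.IsInverseTransposeAutPSL ι) :
    (Even (n * (Fintype.card F - 1) / 4) → Nonempty (↥(Cfsg.inndiagPSL n F ⊓ Subgroup.centralizer {ι}) ≃*
        Cfsg.PGO F (Cfsg.quadFormPlus m F))) ∧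
      (¬ Even (n * (Fintype.card F - 1) / 4) → ∃ a b : F,
        (∀ z₁ z₂ : F, z₁ ^ 2 + a * z₁ * z₂ + b * z₂ ^ 2 = 0 → z₁ = 0 ∧ z₂ = 0) ∧
        Nonempty (↥(Cfsg.inndiagPSL n F ⊓ Subgroup.centralizer {ι}) ≃*
          Cfsg.PGO F (Cfsg.quadFormMinus (m - 1) F a b))) := by
  have h2 : (2 : F) ≠ 0 := H4.two_ne_zero_of_odd_card hodd
  have hn2 : 2 ≤ n := by omega
  rw [eq_of_invTranspose hι, itAut_eq_ofForm]
  have hsym : ((1 : GLn) : Mn)ᵀ = ((1 : GLn) : Mn) := by simp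
  have key : IsSquare ((-1 : F) ^ m * ((1 : GLn) : Mn).det) ↔ Even (n * (Fintype.card F - 1) / 4) := by
    rw [Units.val_one, det_one, mul_one, H4.isSquare_neg_one_pow]
    obtain ⟨k, hk⟩ := hodd
    rw [hk, Nat.add_sub_cancel, hnm, show 2 * m * (2 * k) = 4 * (m * k) by ring,
      Nat.mul_div_cancel_left _ (by norm_num), Nat.even_mul, Nat.even_iff, Nat.even_iff, Nat.odd_iff]
    omega
  exact ⟨fun h => centralizer_plus hn2 h2 hnm hsym (key.mpr h),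
    fun h => centralizer_minus hn2 h2 hnm hsym fun h' => h (key.mp h')⟩

end Cfsg.Agent.H62.GraphPSL
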