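import Cfsg.Agent.H5.OddCharTwo
import Cfsg.Agent.H62.GraphPSL.Basic

/-!
Isometry groups of the symmetric forms in characteristic two.
-/

set_option autoImplicit false
set_option linter.unusedSectionVars false

namespace Cfsg.Agent.H62.GraphPSL

open Matrix Cfsg.Agent.H70.AutPSL

variable {n m : ℕ} {F : Type*} [Field F] [Finite F]

local notation "PSLn" => Matrix.ProjectiveSpecialLinearGroup (Fin n) F
local notation "GLn" => GL (Fin n) F
local notation "Mn" => Matrix (Fin n) (Fin n) F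

theorem exists_sqrt_unit [CharP F 2] (c : Fˣ) : ∃ d : Fˣ, (d : F) * d = c := by
  obtain ⟨d, hd⟩ := (isSquare_of_charTwo' (c : F))
  exact ⟨Units.mk0 d fun h => c.ne_zero (by rw [hd, h, zero_mul]), hd.symm⟩

theorem eq_one_of_sq [CharP F 2] {a : F} (h : a * a = 1) : a = 1 := by
  rcases mul_self_eq_one_iff.mp h with h | h
  · exact h
  · rw [h, CharTwo.neg_eq]

theorem gl_ne_zero (hn : 1 ≤ n) (G : GLn) : (G : Mn) ≠ 0 := fun h0 =>
  Matrix.GeneralLinearGroup.det_ne_zero G (by
    have : Nonempty (Fin n) := ⟨⟨0, hn⟩⟩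
    rw [h0, Matrix.det_zero])

theorem scal_conj (a : F) (G : Mn) :
    ((a • (1 : Mn))ᵀ) * G * (a • (1 : Mn)) = (a * a) • G := by
  simp [smul_smul]

/-- In characteristic two the centraliser is the isometry group of the form. -/
theorem centralizer_equiv_iso [CharP F 2] (hn : 2 ≤ n) (G : GLn) :
    Nonempty (↥(Cfsg.inndiagPSL n F ⊓ Subgroup.centralizer {ofForm G}) ≃* formIso (G : Mn)) := by
  set ρ : formIso (G : Mn) →* MulAut PSLn := (innDiag n F).comp (formIso (G : Mn)).subtype with hρ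
  have hinj : Function.Injective ρ := by
    rw [injective_iff_map_eq_one]
    intro h hh
    obtain ⟨a, ha⟩ := (innDiag_eq_one_iff hn _).mp hh
    have e : ((h : GLn) : Mn)ᵀ * (G : Mn) * ((h : GLn) : Mn) = (G : Mn) := h.2
    rw [show ((h : GLn) : Mn) = (a : F) • (1 : Mn) by rw [← scal_coe]; exact congrArg Units.val ha,
      scal_conj] at e
    have ha1 : (a : F) = 1 :=
      eq_one_of_sq (smul_left_injective F (gl_ne_zero (by omega) G) (e.trans (one_smul F _).symm))
    refine Subtype.ext (Units.ext ?_)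
    rw [Subgroup.coe_one, Units.val_one,
      show ((h : GLn) : Mn) = (scal n a : Mn) from congrArg Units.val ha, scal_coe, ha1, one_smul]
  have hrange : ρ.range = Cfsg.inndiagPSL n F ⊓ Subgroup.centralizer {ofForm G} := by
    rw [inf_centralizer_eq hn]
    refine le_antisymm ?_ ?_
    · rintro _ ⟨h, rfl⟩
      exact ⟨h, formIso_le_formSim _ h.2, rfl⟩
    · rintro _ ⟨h, ⟨c, hc⟩, rfl⟩
      obtain ⟨d, hd⟩ := exists_sqrt_unit c
      refine ⟨⟨scal n d⁻¹ * h, ?_⟩, ((innDiag_eq_iff hn _ _).mpr ⟨d⁻¹, rfl⟩).symm⟩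
      show ((scal n d⁻¹ * h : GLn) : Mn)ᵀ * G * (scal n d⁻¹ * h : GLn) = G
      rw [scal_mul_coe, transpose_smul, Matrix.smul_mul, Matrix.smul_mul, Matrix.mul_smul, hc,
        smul_smul, smul_smul, ← hd, ← mul_assoc, Units.val_inv_eq_inv_val]
      have := d.ne_zero
      rw [show ((d : F)⁻¹ * (d : F)⁻¹ * d * d) = 1 by field_simp, one_smul]
  exact ⟨((MonoidHom.ofInjective hinj).trans (MulEquiv.subgroupCongr hrange)).symm⟩

/-- Congruent forms have isomorphic isometry groups. -/
theorem formIso_equiv {ι κ : Type} [Fintype ι] [DecidableEq ι] [Fintype κ] [DecidableEq κ]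
    {G : Matrix κ κ F} {K : Matrix ι ι F} (L : (κ → F) ≃ₗ[F] (ι → F))
    (hK : ∀ u v, (L u) ⬝ᵥ K *ᵥ (L v) = u ⬝ᵥ G *ᵥ v) : Nonempty (formIso G ≃* formIso K) := by
  have h : (formIso G).map (glConj L).toMonoidHom = formIso K := by
    ext k
    constructor
    · rintro ⟨g, hg, rfl⟩
      exact (glConj_mem_formIso L hK g).mpr hg
    · intro hk
      exact ⟨(glConj L).symm k, (glConj_mem_formIso L hK _).mp (by simpa using hk), by simp⟩
  exact ⟨((glConj L).subgroupMap _).trans (MulEquiv.subgroupCongr h)⟩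

/-- The isometries of the standard alternating matrix form the symplectic group. -/
theorem formIso_J_equiv : Nonempty (formIso (Matrix.J (Fin m) F) ≃* Matrix.symplecticGroup (Fin m) F) := by
  refine ⟨MulEquiv.ofBijective
    ((((Units.coeHom _).comp (formIso (Matrix.J (Fin m) F)).subtype).codRestrict
      (Matrix.symplecticGroup (Fin m) F) fun h => SymplecticGroup.mem_iff'.mpr h.2)) ⟨fun a b e => ?_, fun s => ?_⟩⟩
  · exact Subtype.ext (Units.ext (congrArg Subtype.val e))
  · refine ⟨⟨(Matrix.symplecticGroup (Fin m) F).subtype.toHomUnits s, ?_⟩, Subtype.ext rfl⟩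
    exact SymplecticGroup.mem_iff'.mp s.2

/-- The form `x₀² ⊕ J`. -/
def oddMat (m : ℕ) (F : Type*) [Field F] :
    Matrix (Unit ⊕ (Fin m ⊕ Fin m)) (Unit ⊕ (Fin m ⊕ Fin m)) F :=
  fromBlocks 1 0 0 (Matrix.J (Fin m) F)

theorem diag_alt [CharP F 2] (v : Fin m ⊕ Fin m → F) : v ⬝ᵥ Matrix.J (Fin m) F *ᵥ v = 0 := by
  show Cfsg.sympForm m F v v = 0
  simp [H2.sympForm_apply, mul_comm]

theorem oddMat_quad [CharP F 2] (x : Unit ⊕ (Fin m ⊕ Fin m) → F) :
    x ⬝ᵥ oddMat m F *ᵥ x = x (.inl ()) * x (.inl ()) := by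
  rw [oddMat, fromBlocks_mulVec, dotProduct, Fintype.sum_sum_type]
  have h := diag_alt (m := m) (x ∘ Sum.inr)
  simp only [dotProduct, Function.comp] at h
  simp [h, Function.comp]

theorem formIso_oddMat_equiv [CharP F 2] :
    Nonempty (formIso (oddMat m F) ≃* Matrix.symplecticGroup (Fin m) F) := by
  let φ₀ : Matrix.symplecticGroup (Fin m) F →*
      Matrix (Unit ⊕ (Fin m ⊕ Fin m)) (Unit ⊕ (Fin m ⊕ Fin m)) F :=
    { toFun := fun s => fromBlocks 1 0 0 (s : Matrix (Fin m ⊕ Fin m) (Fin m ⊕ Fin m) F)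
      map_one' := by simp
      map_mul' := fun a b => by simp [fromBlocks_multiply] }
  let φ : Matrix.symplecticGroup (Fin m) F →* formIso (oddMat m F) :=
    φ₀.toHomUnits.codRestrict _ fun s => by
      show (φ₀ s)ᵀ * oddMat m F * φ₀ s = oddMat m F
      simp [φ₀, oddMat, fromBlocks_transpose, fromBlocks_multiply,
        SymplecticGroup.mem_iff'.mp s.2]
  refine ⟨(MulEquiv.ofBijective φ ⟨fun a b e => ?_, fun h => ?_⟩).symm⟩
  · have := congrArg (fun x : formIso (oddMat m F) =>
      ((x : GL (Unit ⊕ (Fin m ⊕ Fin m)) F) :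
        Matrix (Unit ⊕ (Fin m ⊕ Fin m)) (Unit ⊕ (Fin m ⊕ Fin m)) F).toBlocks₂₂) e
    exact Subtype.ext (by simpa [φ, φ₀] using this)
  · set M : Matrix (Unit ⊕ (Fin m ⊕ Fin m)) (Unit ⊕ (Fin m ⊕ Fin m)) F :=
      ((h : GL (Unit ⊕ (Fin m ⊕ Fin m)) F) :
        Matrix (Unit ⊕ (Fin m ⊕ Fin m)) (Unit ⊕ (Fin m ⊕ Fin m)) F) with hM
    have hh : Mᵀ * oddMat m F * M = oddMat m F := h.2
    have hrow : ∀ v, (M *ᵥ v) (.inl ()) = v (.inl ()) := fun v => by
      have e := oddMat_quad (m := m) (M *ᵥ v)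
      rw [dot_mulVec_congr, hh, oddMat_quad] at e
      exact (mul_self_eq_mul_self_iff.mp e.symm).elim id (fun e => by rw [e, CharTwo.neg_eq])
    have hMrow : ∀ j, M (.inl ()) j = (1 : Matrix (Unit ⊕ (Fin m ⊕ Fin m)) (Unit ⊕ (Fin m ⊕ Fin m)) F) (.inl ()) j := fun j => by
      simpa [mulVec_single, Matrix.one_apply, Pi.single_apply] using hrow (Pi.single j 1)
    have h11 : M.toBlocks₁₁ = 1 := by
      ext ⟨⟩ ⟨⟩; simpa [toBlocks₁₁] using hMrow (.inl ())
    have h12 : M.toBlocks₁₂ = 0 := by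
      ext ⟨⟩ j; simpa [toBlocks₁₂] using hMrow (.inr j)
    rw [← fromBlocks_toBlocks M, h11, h12] at hh
    simp only [oddMat, fromBlocks_transpose, fromBlocks_multiply, transpose_one, transpose_zero,
      Matrix.one_mul, Matrix.zero_mul, Matrix.mul_zero, Matrix.mul_one, add_zero, zero_add,
      fromBlocks_inj] at hh
    obtain ⟨-, h12', -, h22⟩ := hh
    have hs : M.toBlocks₂₂ ∈ Matrix.symplecticGroup (Fin m) F := SymplecticGroup.mem_iff'.mpr h22
    have h21 : M.toBlocks₂₁ = 0 := by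
      have hd : IsUnit M.toBlocks₂₂.det := SymplecticGroup.symplectic_det hs
      have e1 : M.toBlocks₂₁ᵀ * Matrix.J (Fin m) F = 0 := by
        have := congrArg (fun X => X * M.toBlocks₂₂⁻¹) h12'
        simpa [Matrix.mul_assoc, Matrix.mul_nonsing_inv _ hd] using this
      have e2 := congrArg (fun X => X * Matrix.J (Fin m) F) e1
      simpa [Matrix.mul_assoc, Matrix.J_squared] using e2
    refine ⟨⟨M.toBlocks₂₂, hs⟩, Subtype.ext (Units.ext ?_)⟩
    show fromBlocks 1 0 0 M.toBlocks₂₂ = M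
    conv_rhs => rw [← fromBlocks_toBlocks M, h11, h12, h21]

/-- The transvection in the centre of a point stabiliser. -/
def transMat (m : ℕ) [NeZero m] (F : Type*) [Field F] : Matrix (Fin m ⊕ Fin m) (Fin m ⊕ Fin m) F :=
  1 + Matrix.single (.inr 0) (.inl 0) 1

theorem transMat_sub_one [NeZero m] : transMat m F - 1 = Matrix.single (.inr 0) (.inl 0) 1 :=
  add_sub_cancel_left _ _

theorem isTransvection_transMat [NeZero m] : Cfsg.IsTransvection (transMat m F) := by
  rw [Cfsg.IsTransvection, transMat_sub_one]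
  refine ⟨?_, by rw [Matrix.single_mul_single_of_ne]; simp⟩
  refine le_antisymm ?_ ?_
  · rw [single_eq_single_vecMulVec_single]
    exact Matrix.rank_vecMulVec_le _ _
  · refine Nat.one_le_iff_ne_zero.mpr fun h => ?_
    rw [Matrix.rank, Submodule.finrank_eq_zero, LinearMap.range_eq_bot] at h
    have := congrFun (LinearMap.congr_fun h (Pi.single (.inl 0) 1)) (.inr 0)
    simp at this

theorem J_mul_transMat [NeZero m] [CharP F 2] : Matrix.J (Fin m) F * transMat m F =
    Matrix.J (Fin m) F + Matrix.single (.inl 0) (.inl 0) 1 := by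
  rw [transMat, Matrix.mul_add, Matrix.mul_one]
  refine congrArg₂ _ rfl ?_
  ext i j
  rcases i with i | i <;> rcases j with j | j <;>
    simp [Matrix.J, Matrix.mul_apply, Fintype.sum_sum_type, Matrix.single_apply, Matrix.one_apply,
      CharTwo.neg_eq, eq_comm, and_comm] <;> aesop

theorem transMat_mem [NeZero m] [CharP F 2] : transMat m F ∈ Matrix.symplecticGroup (Fin m) F := by
  rw [SymplecticGroup.mem_iff', Matrix.mul_assoc, J_mul_transMat, transMat, transpose_add,
    transpose_one, transpose_single, Matrix.add_mul, Matrix.one_mul, Matrix.mul_add,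
    Matrix.single_mul_single_of_ne, add_zero]
  · have : Matrix.single (Sum.inl 0) (Sum.inr 0) (1 : F) * Matrix.J (Fin m) F =
        Matrix.single (Sum.inl 0) (Sum.inl 0) 1 := by
      ext i j
      rcases i with i | i <;> rcases j with j | j <;>
        simp [Matrix.J, Matrix.mul_apply, Fintype.sum_sum_type, Matrix.single_apply, Matrix.one_apply,
          CharTwo.neg_eq, eq_comm, and_comm] <;> aesop
    rw [this, add_assoc, CharTwo.add_self_eq_zero, add_zero]
  · simp

/-- The form `J + w wᵀ`. -/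
def evenMat (m : ℕ) [NeZero m] (F : Type*) [Field F] : Matrix (Fin m ⊕ Fin m) (Fin m ⊕ Fin m) F :=
  Matrix.J (Fin m) F * transMat m F

set_option maxHeartbeats 1000000 in
theorem formIso_evenMat_equiv [NeZero m] [CharP F 2] :
    Nonempty (formIso (evenMat m F) ≃*
      Subgroup.centralizer ({⟨transMat m F, transMat_mem⟩} : Set (Matrix.symplecticGroup (Fin m) F))) := by
  set J := Matrix.J (Fin m) F
  set t := transMat m F
  have hkey : ∀ h : GL (Fin m ⊕ Fin m) F, h ∈ formIso (evenMat m F) ↔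
      (h : Matrix _ _ F) ∈ Matrix.symplecticGroup (Fin m) F ∧ t * (h : Matrix _ _ F) = (h : Matrix _ _ F) * t := by
    intro h
    set M := (h : Matrix (Fin m ⊕ Fin m) (Fin m ⊕ Fin m) F)
    rw [SymplecticGroup.mem_iff', mem_formIso]
    have hinv : IsUnit (Mᵀ * J) := by
      refine IsUnit.mul ?_ ((Matrix.isUnit_iff_isUnit_det _).mpr (Matrix.isUnit_det_J _ _))
      rw [Matrix.isUnit_iff_isUnit_det, Matrix.det_transpose, ← Matrix.isUnit_iff_isUnit_det]
      exact h.isUnit
    constructor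
    · intro e
      have hrow : ∀ v, (M *ᵥ v) (.inl 0) = v (.inl 0) := fun v => by
        have hq : ∀ x : Fin m ⊕ Fin m → F, x ⬝ᵥ evenMat m F *ᵥ x = x (.inl 0) * x (.inl 0) := by
          intro x
          rw [evenMat, J_mul_transMat, add_mulVec, dotProduct_add, diag_alt, zero_add]
          simp [single_mulVec, Function.update_apply, dotProduct]
        have e' := hq (M *ᵥ v)
        rw [dot_mulVec_congr, e, hq] at e'
        exact (mul_self_eq_mul_self_iff.mp e'.symm).elim id (fun e => by rw [e, CharTwo.neg_eq])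
      have hd : Mᵀ * Matrix.single (.inl 0) (.inl 0) 1 * M = Matrix.single (.inl 0) (.inl 0) 1 := by
        refine ext_of_bilin fun u v => ?_
        rw [← dot_mulVec_congr]
        simp [-mulVec_mulVec, single_mulVec, Function.update_apply, dotProduct, hrow]
      have hJ : Mᵀ * J * M = J := by
        have e' : Mᵀ * evenMat m F * M = evenMat m F := e
        rw [evenMat, J_mul_transMat, Matrix.mul_add, Matrix.add_mul, hd] at e'
        exact add_right_cancel e'
      refine ⟨hJ, hinv.mul_left_cancel ?_⟩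
      calc Mᵀ * J * (t * M) = Mᵀ * (J * t) * M := by simp only [Matrix.mul_assoc]
        _ = J * t := e
        _ = Mᵀ * J * M * t := by rw [hJ]
        _ = Mᵀ * J * (M * t) := by simp only [Matrix.mul_assoc]
    · rintro ⟨hJ, hc⟩
      show Mᵀ * (J * t) * M = J * t
      rw [Matrix.mul_assoc, Matrix.mul_assoc J, hc, ← Matrix.mul_assoc, ← Matrix.mul_assoc,
        hJ]
  let ψ : formIso (evenMat m F) →* Subgroup.centralizer
      ({⟨transMat m F, transMat_mem⟩} : Set (Matrix.symplecticGroup (Fin m) F)) :=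
    MonoidHom.mk' (fun h : formIso (evenMat m F) => ⟨⟨((h : GL (Fin m ⊕ Fin m) F) : Matrix (Fin m ⊕ Fin m) (Fin m ⊕ Fin m) F), ((hkey h.1).mp h.2).1⟩,
      Subgroup.mem_centralizer_iff.mpr fun x hx => by
        rw [Set.mem_singleton_iff] at hx
        subst hx
        exact Subtype.ext (((hkey h.1).mp h.2).2)⟩) fun a b => Subtype.ext (Subtype.ext rfl)
  refine ⟨MulEquiv.ofBijective ψ ⟨fun a b e => Subtype.ext (Units.ext
    (congrArg Subtype.val (congrArg Subtype.val e))), fun s => ?_⟩⟩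
  refine ⟨⟨(Matrix.symplecticGroup (Fin m) F).subtype.toHomUnits s.1, (hkey _).mpr ⟨s.1.2, ?_⟩⟩,
    Subtype.ext (Subtype.ext rfl)⟩
  exact congrArg Subtype.val (Subgroup.mem_centralizer_iff.mp s.2 _ (Set.mem_singleton _))

/-- Similarities modulo scalars are the isometries when every scalar is a unique square. -/
theorem pgo_equiv_isometry [CharP F 2] {ι : Type} [Fintype ι] [DecidableEq ι]
    (Q : QuadraticForm F (ι → F)) {f : (ι → F) → F} (hf : ⇑Q = f) (hne : ∃ v, f v ≠ 0) :
    Nonempty (Cfsg.PGO F f ≃* Cfsg.isometryGroup F f) := by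
  subst hf
  set N := (Geo.scalars ι F).subgroupOf (Geo.quadSimilarityGroup (⇑Q))
  have hmem : ∀ g : GL ι F, g ∈ Cfsg.isometryGroup F (⇑Q) ↔
      ∀ v, Q ((g : Matrix ι ι F) *ᵥ v) = Q v :=
    fun g => ⟨fun h v => h v v, fun h u _ => h u⟩
  let φ : Cfsg.isometryGroup F (⇑Q) →* Cfsg.PGO F (⇑Q) :=
    (QuotientGroup.mk' N).comp (MonoidHom.mk' (fun g => (⟨g.1, 1, fun v => by
      rw [(hmem _).mp g.2, Units.val_one, one_mul]⟩ : Geo.quadSimilarityGroup (⇑Q))) fun a b => rfl)
  refine ⟨(MulEquiv.ofBijective φ ⟨?_, fun x => ?_⟩).symm⟩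
  · rw [injective_iff_map_eq_one]
    intro g hg
    have hg' := (QuotientGroup.eq_one_iff _).mp hg
    rw [Subgroup.mem_subgroupOf, Geo.mem_scalars_iff] at hg'
    obtain ⟨c, hc⟩ := hg'
    obtain ⟨v, hv⟩ := hne
    have e := (hmem _).mp g.2 v
    rw [show ((g.1 : GL ι F) : Matrix ι ι F) = (c : F) • (1 : Matrix ι ι F) from hc, smul_mulVec,
      one_mulVec, QuadraticMap.map_smul, smul_eq_mul] at e
    have hc1 : (c : F) = 1 := eq_one_of_sq (mul_right_cancel₀ hv (e.trans (one_mul _).symm))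
    refine Subtype.ext (Units.ext ?_)
    rw [show ((g.1 : GL ι F) : Matrix ι ι F) = (c : F) • (1 : Matrix ι ι F) from hc, hc1, one_smul]
    rfl
  · induction x using QuotientGroup.induction_on with
    | _ g =>
      obtain ⟨c, hc⟩ := g.2
      obtain ⟨d, hd⟩ := exists_sqrt_unit c
      set s : GL ι F := Units.map (Matrix.scalar ι : F →+* Matrix ι ι F).toMonoidHom d⁻¹
      refine ⟨⟨s * g.1, (hmem _).mpr fun v => ?_⟩, QuotientGroup.eq.mpr ?_⟩
      · have hs : (s : Matrix ι ι F) = ((d⁻¹ : Fˣ) : F) • (1 : Matrix ι ι F) := by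
          simp [s, Matrix.smul_one_eq_diagonal]
        rw [Units.val_mul, hs, Matrix.smul_mul, Matrix.one_mul, smul_mulVec, QuadraticMap.map_smul,
          hc, smul_eq_mul, ← hd, ← mul_assoc, Units.val_inv_eq_inv_val]
        have := d.ne_zero
        rw [show ((d : F)⁻¹ * (d : F)⁻¹ * (d * d)) = 1 by field_simp, one_mul]
      · rw [Subgroup.mem_subgroupOf]
        show (s * g.1)⁻¹ * g.1 ∈ Geo.scalars ι F
        rw [_root_.mul_inv_rev, mul_assoc]
        have hcomm : s⁻¹ * g.1 = g.1 * s⁻¹ := by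
          apply Units.ext
          rw [Units.val_mul, Units.val_mul, ← map_inv]
          simp
          exact (Matrix.scalar_commute _ (fun r => Commute.all _ r) _).eq
        rw [hcomm, inv_mul_cancel_left]
        exact inv_mem ⟨_, rfl⟩

/-- The similarity quotient of the odd form is the symplectic group. -/
theorem pgoOdd_equiv_sp [CharP F 2] :
    Nonempty (Cfsg.PGO F (Cfsg.quadFormOdd m F) ≃* Matrix.symplecticGroup (Fin m) F) := by
  obtain ⟨e⟩ := pgo_equiv_isometry (H5.qOdd m F) (H5.coe_qOdd m) ⟨H5.radVec m F, by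
    simp [H5.radVec, H5.qOdd_apply_elim, QuadraticMap.map_zero]⟩
  exact ⟨e.trans (MulEquiv.ofBijective _ H5.spRestrict_bijective)⟩

end Cfsg.Agent.H62.GraphPSL
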